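import Cfsg.Agent.H289.Ccp.Abs
import Cfsg.Agent.H520.CcpNE
import Cfsg.Agent.FixBN.RankProd

/-!
# Minimal invariant residues and `CCP` (helper289, S4114)

* `partA` : the type `J` of a minimal invariant residue with solvable `[H, τ]` is commuting, all nodes are moved;
* `gd_empty` : `J = ∅`.
-/

set_option autoImplicit false
set_option linter.unusedSectionVars false

open scoped Pointwise

namespace Cfsg.Agent.H289.Ccp

open Cfsg.Agent.Tits.Core Cfsg.Agent.Tits.Core.Bldg Cfsg.Agent.Tits Cfsg.Agent.Tits.Exchange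
open Cfsg.Agent.FixBN (Sys)
open Cfsg.Agent.FixBN.RankProd (Com mem_or)
open Cfsg.Agent.FixBN.Cox (mem_of_simple_mem)
open Cfsg.Agent.FixOdd (Tw)
open Cfsg.Agent.H520 Cfsg.Agent.H520.NS Cfsg.Agent.H520.NE

variable {I : Type*} {M : CoxeterMatrix I} {W : Type*} [Group W] {cs : CoxeterSystem M W} {C : Type*}
  {Δ : Bldg cs C} [F : OppRes.Cox cs]

local prefix:100 "ℓ" => cs.length
local prefix:100 "s" => cs.simple

section Words

variable {J : Set I}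

/-- descents in a commuting set -/
theorem desc_iff (hJ : Com cs J) {j : I} (hj : j ∈ J) {w : W} (hw : w ∈ WJ cs J) :
    ℓ (w * s j) < ℓ w ↔ w ∉ WJ cs (J \ {j}) := by
  constructor
  · intro h h'
    exact (F.descent_mem _ _ h' j h).2 rfl
  · intro h
    have h1 := (mem_or hJ hj hw).resolve_left h
    have h2 : ¬ ℓ (w * s j * s j) < ℓ (w * s j) := fun h3 => (F.descent_mem _ _ h1 j h3).2 rfl
    rw [mul_assoc, cs.simple_mul_simple_self, mul_one] at h2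
    rcases cs.length_mul_simple w j with h3 | h3 <;> omega

/-- intersections -/
theorem mem_sdiff {O : Set I} {w : W} (hw : w ∈ WJ cs J) (h : ∀ o ∈ O, w ∈ WJ cs (J \ {o})) : w ∈ WJ cs (J \ O) := by
  induction hn : ℓ w using Nat.strong_induction_on generalizing w with
  | _ n ih =>
    by_cases h1 : w = 1
    · rw [h1]; exact one_mem _
    · obtain ⟨j, hj⟩ := cs.exists_rightDescent_of_ne_one h1
      have hj : ℓ (w * s j) < ℓ w := hj
      have hjJ : j ∈ J \ O :=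
        ⟨F.descent_mem _ _ hw j hj, fun hjO => (F.descent_mem _ _ (h j hjO) j hj).2 rfl⟩
      have h2 := ih _ (hn ▸ hj) (w := w * s j) (mul_mem hw (simple_mem_WJ cs hjJ.1))
        (fun o ho => mul_mem (h o ho) (simple_mem_WJ cs ⟨hjJ.1, fun e => hjJ.2 (by
          have : j = o := e
          rw [this]; exact ho)⟩)) rfl
      have h3 := mul_mem h2 (simple_mem_WJ cs hjJ)
      rwa [mul_assoc, cs.simple_mul_simple_self, mul_one] at h3

/-- an element without descents outside `O` -/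
theorem mem_of_min (hJ : Com cs J) {O : Set I} {w : W} (hw : w ∈ WJ cs J)
    (h : ∀ j ∈ J, j ∉ O → ¬ ℓ (w * s j) < ℓ w) : w ∈ WJ cs O := by
  have h1 : w ∈ WJ cs (J \ (J \ O)) := by
    refine mem_sdiff hw fun o ho => ?_
    have h2 := h o ho.1 ho.2
    rw [desc_iff hJ ho.1 hw, not_not] at h2
    exact h2
  refine WJ_mono cs ?_ h1
  rintro i ⟨hi, hi'⟩
  by_contra h3
  exact hi' ⟨hi, h3⟩

/-- an element of a commuting parabolic is determined by its descents -/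
theorem eq_of_desc {O : Set I} (hO : Com cs O) {w w' : W} (hw : w ∈ WJ cs O) (hw' : w' ∈ WJ cs O)
    (h : ∀ o ∈ O, (ℓ (w * s o) < ℓ w ↔ ℓ (w' * s o) < ℓ w')) : w = w' := by
  induction hn : ℓ w using Nat.strong_induction_on generalizing w w' with
  | _ n ih =>
    by_cases h1 : w = 1
    · by_contra h2
      have h3 : w' ≠ 1 := fun h4 => h2 (by rw [h1, h4])
      obtain ⟨j, hj⟩ := cs.exists_rightDescent_of_ne_one h3
      have hj : ℓ (w' * s j) < ℓ w' := hj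
      have h4 := (h j (F.descent_mem _ _ hw' j hj)).2 hj
      rw [h1, cs.length_one] at h4
      omega
    · obtain ⟨j, hj⟩ := cs.exists_rightDescent_of_ne_one h1
      have hj : ℓ (w * s j) < ℓ w := hj
      have hjO := F.descent_mem _ _ hw j hj
      have hj' := (h j hjO).1 hj
      have hs := simple_mem_WJ cs hjO
      have h2 := ih _ (hn ▸ hj) (w := w * s j) (w' := w' * s j) (mul_mem hw hs) (mul_mem hw' hs) (fun o ho => by
        by_cases hoj : o = j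
        · subst hoj
          rw [mul_assoc, mul_assoc, cs.simple_mul_simple_self, mul_one, mul_one]
          constructor
          · intro h5; omega
          · intro h5; omega
        · have hs' : s j ∈ WJ cs (O \ {o}) := simple_mem_WJ cs ⟨hjO, fun e => hoj (Eq.symm e)⟩
          rw [desc_iff hO ho (mul_mem hw hs), desc_iff hO ho (mul_mem hw' hs), Subgroup.mul_mem_cancel_right _ hs',
            Subgroup.mul_mem_cancel_right _ hs', ← desc_iff hO ho hw, ← desc_iff hO ho hw']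
          exact h o ho) rfl
      exact mul_right_cancel h2

end Words

section A

variable {G : Type*} [Group G] [MulAction G C] [Finite G] [Finite I] [Finite C] {r : ℕ} [hr : Fact r.Prime]
  {t : Tw Δ G}

omit [Finite G] [Finite I] [Finite C] F in
theorem cM_τ {G : Type*} [Group G] {α : MulAut G} {M : Subgroup G} (hM : ∀ m ∈ M, α m ∈ M) :
    ∀ k ∈ cM α M, α k ∈ cM α M := by
  intro k hk
  unfold cM at hk
  induction hk using Subgroup.closure_induction with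
  | mem y hy =>
    obtain ⟨g, hg, rfl⟩ := hy
    rw [map_mul, map_inv]
    exact mem_cM α (hM g hg)
  | one => rw [map_one]; exact one_mem _
  | mul a b _ _ ha hb => rw [map_mul]; exact mul_mem ha hb
  | inv a _ ha => rw [map_inv]; exact inv_mem ha

theorem mem_stab_of (S : Sys Δ G r) {J : Set I} {x y : C} (hy : y ∈ Δ.Res J x) {m : G} :
    m ∈ MulAction.stabilizer G (Δ.Res J x) ↔ m • y ∈ Δ.Res J x := by
  rw [← Δ.Res_eq_of_mem hy]
  exact mem_stab_res S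

theorem stab_τ (S : Sys Δ G r) {J : Set I} {x : C} (h : t.Gd J x) :
    ∀ m ∈ MulAction.stabilizer G (Δ.Res J x), t.τ m ∈ MulAction.stabilizer G (Δ.Res J x) := by
  intro m hm
  rw [mem_stab_of S h.θ_mem, ← t.θ_smul]
  exact h.θ_stable _ ((mem_stab_of S (Δ.self_mem_Res J x)).1 hm)

/-- **Part (A).** -/
theorem partA (S : Sys Δ G r) (hth : Δ.Thick)
    (hD : ∀ x y x' y' : C, Δ.δ x y = Δ.δ x' y' → ∃ g : G, g • x = x' ∧ g • y = y') {J : Set I} {x : C}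
    (h : t.Gd J x) (hsol : Group.IsSolvable (cM t.τ (MulAction.stabilizer G (Δ.Res J x)))) :
    Com cs J ∧ ∀ y ∈ Δ.Res J x, ∀ j ∈ J, Dst Δ (cM t.τ (MulAction.stabilizer G (Δ.Res J x))) y (s j) := by
  obtain ⟨H, hH⟩ : ∃ H, H = MulAction.stabilizer G (Δ.Res J x) := ⟨_, rfl⟩
  have hHm : ∀ {y : C}, y ∈ Δ.Res J x → ∀ {m : G}, m ∈ H ↔ m • y ∈ Δ.Res J x := fun {y} hy {m} => by
    rw [hH]; exact mem_stab_of S hy
  have hHτ : ∀ m ∈ H, t.τ m ∈ H := by rw [hH]; exact stab_τ S h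
  rw [← hH] at hsol ⊢
  obtain ⟨K, hK⟩ : ∃ K, K = cM t.τ H := ⟨_, rfl⟩
  have hKle : K ≤ H := by rw [hK]; exact cM_le _ hHτ
  have hKn : ∀ m ∈ H, ∀ k ∈ K, m * k * m⁻¹ ∈ K := by rw [hK]; exact cM_conj hHτ
  have hKτ : ∀ k ∈ K, t.τ k ∈ K := by rw [hK]; exact cM_τ hHτ
  have hKc : ∀ g ∈ H, g⁻¹ * t.τ g ∈ K := fun g hg => by rw [hK]; exact mem_cM t.τ hg
  rw [← hK] at hsol ⊢
  have hMA : ∀ y ∈ Δ.Res J x, MA Δ H y J := fun y hy => by
    have := ma_res S hth hD (T := J) (c := y)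
    rw [Δ.Res_eq_of_mem hy, ← hH] at this
    exact this
  -- the moved nodes
  have hall : ∀ j, ∀ y ∈ Δ.Res J x, Dst Δ K y (s j) → ∀ z ∈ Δ.Res J x, Dst Δ K z (s j) := by
    rintro j y hy ⟨k, hk, hkj⟩ z hz
    obtain ⟨g, hg, -⟩ := hD y y z z (by rw [Δ.δ_self, Δ.δ_self])
    have hgH : g ∈ H := (hHm hy).2 (by rw [hg]; exact hz)
    refine ⟨g * k * g⁻¹, hKn g hgH k hk, ?_⟩
    rw [← hg, mul_smul, mul_smul, inv_smul_smul, S.iso, hkj]
  have hpan : ∀ j, ∀ z ∈ Δ.Res J x, Dst Δ K z (s j) → ∀ w, Δ.δ z w = s j → ∃ k ∈ K, k • z = w := by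
    rintro j z hz ⟨k, hk, hkj⟩ w hw
    obtain ⟨g, hg, hgw⟩ := hD z (k • z) z w (hkj.trans hw.symm)
    have hgH : g ∈ H := (hHm hz).2 (by rw [hg]; exact hz)
    refine ⟨g * k * g⁻¹, hKn g hgH k hk, ?_⟩
    have h1 : g⁻¹ • z = z := by rw [inv_smul_eq_iff, hg]
    rw [mul_smul, mul_smul, h1, hgw]
  let J' : Set I := {j | j ∈ J ∧ Dst Δ K x (s j)}
  have hx := Δ.self_mem_Res J x
  have hJ' : ∀ j ∈ J', t.σ j ∈ J' := by
    rintro j ⟨hj, k, hk, hkj⟩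
    refine ⟨h.st j hj, hall _ _ h.θ_mem ⟨t.τ k, hKτ k hk, ?_⟩ x hx⟩
    rw [← t.θ_smul, t.δ_θ, hkj, t.φ_simple]
  -- `K` acts trivially on the residues of type `J'`
  have htriv : ∀ n, ∀ z ∈ Δ.Res J x, ∀ k ∈ K, ℓ (Δ.δ z (k • z)) = n → k • z ∈ Δ.Res J' z := by
    intro n
    induction n with
    | zero =>
      intro z _ k _ hkn
      rw [cs.length_eq_zero_iff] at hkn
      rw [mem_Res, hkn]
      exact one_mem _
    | succ n ih =>
      intro z hz k hk hkn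
      have h1 : Δ.δ z (k • z) ≠ 1 := fun h1 => by
        rw [h1, cs.length_one] at hkn
        omega
      obtain ⟨j, hj⟩ := cs.exists_rightDescent_of_ne_one h1
      have hj : ℓ (Δ.δ z (k • z) * s j) < ℓ (Δ.δ z (k • z)) := hj
      have hkz : k • z ∈ Δ.Res J x := (hHm hz).1 (hKle hk)
      have hjJ : j ∈ J := F.descent_mem _ _ (Δ.δ_mem_of_mem_Res hz hkz) j hj
      have hd := rd (hMA z hz) hKle hKn ⟨k, hk, rfl⟩ hj
      have hjJ' : j ∈ J' := ⟨hjJ, hall j z hz hd x hx⟩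
      obtain ⟨w, hw1, hw2⟩ := Δ.exists_step z (k • z) j
      obtain ⟨k', hk', hkw⟩ := hpan j _ hkz (hall j z hz hd _ hkz) w hw1
      have h2 := ih z hz (k' * k) (mul_mem hk' hk) (by
        rw [mul_smul, hkw, hw2]
        rcases cs.length_mul_simple (Δ.δ z (k • z)) j with h3 | h3 <;> omega)
      rw [mul_smul, hkw] at h2
      exact Δ.mem_Res_trans h2 (Δ.mem_Res_symm (Δ.mem_Res_trans (Δ.self_mem_Res J' _)
        (by rw [mem_Res, hw1]; exact simple_mem_WJ cs hjJ')))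
  -- `θ` fixes the residues of type `J'`
  have hfix : ∀ z ∈ Δ.Res J x, t.θ z ∈ Δ.Res J' z := by
    intro z hz
    rw [Δ.mem_Res_comm]
    refine FixOdd.res_subset S hth (J := J') (J' := J') (x := z) (y := t.θ z) (fun g hg => ?_) (Δ.self_mem_Res _ _)
    have h1 : g • z ∈ Δ.Res J' z := by
      rw [← hg]
      exact Set.smul_mem_smul_set (Δ.self_mem_Res _ _)
    have hJJ : J' ⊆ J := fun j hj => hj.1
    have hgH : g ∈ H := (hHm hz).2 (Δ.mem_Res_trans hz (Δ.Res_mono hJJ z h1))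
    have hθz := h.θ_stable z hz
    have h2 := htriv _ (t.θ z) hθz _ (hKc g hgH) rfl
    have h3 : t.θ (g • z) = g • (g⁻¹ * t.τ g) • t.θ z := by
      rw [t.θ_smul, ← mul_smul, mul_inv_cancel_left]
    have h4 : t.θ (g • z) ∈ Δ.Res J' (t.θ z) := t.θ_mem_Res hJ' h1
    rw [S.smul_Res]
    refine Δ.Res_eq_of_mem (Δ.mem_Res_trans h4 (Δ.mem_Res_symm ?_))
    rw [h3, ← S.smul_Res]
    exact Set.smul_mem_smul_set h2
  have hJJ : J' = J := h.min x hx J' (fun j hj => hj.1) hJ' (hfix x hx)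
  have hd : ∀ j ∈ J, Dst Δ K x (s j) := fun j hj => by
    have h1 : j ∈ J' := by rw [hJJ]; exact hj
    exact h1.2
  refine ⟨fun i hi j hj => ?_, fun y hy j hj => hall j x hx (hd j hj) y hy⟩
  by_contra hne
  exact no_node (hMA x hx) hKle hKn hsol hi hj hne (hd i hi)

end A

/-! ### Part (B) -/

/-- the residues of type `J1` in `Res J x` -/
def RX (Δ : Bldg cs C) (J J1 : Set I) (x : C) : Type _ := {Z : Set C // ∃ y ∈ Δ.Res J x, Δ.Res J1 y = Z}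

namespace RX

variable {J J1 : Set I} {x : C}

/-- the residue of `y` -/
def mk (y : C) (hy : y ∈ Δ.Res J x) : RX Δ J J1 x := ⟨Δ.Res J1 y, y, hy, rfl⟩

omit F in
theorem rind {p : RX Δ J J1 x → Prop} (h : ∀ y hy, p (mk y hy)) (Z : RX Δ J J1 x) : p Z := by
  obtain ⟨Z, y, hy, rfl⟩ := Z
  exact h y hy

omit F in
theorem mk_eq {y z : C} (hy : y ∈ Δ.Res J x) (hz : z ∈ Δ.Res J x) (h : z ∈ Δ.Res J1 y) :
    (mk y hy : RX Δ J J1 x) = mk z hz := Subtype.ext (Δ.Res_eq_of_mem h).symm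

/-- the action -/
@[instance_reducible] def act {G : Type*} [Group G] [MulAction G C] (hiso : ∀ (g : G) (x y : C), Δ.δ (g • x) (g • y) = Δ.δ x y)
    (J J1 : Set I) (x : C) (H : Subgroup G) (hH : ∀ m ∈ H, ∀ y ∈ Δ.Res J x, m • y ∈ Δ.Res J x) :
    MulAction H (RX Δ J J1 x) where
  smul m Z := ⟨m.1 • Z.1, by
    obtain ⟨y, hy, hZ⟩ := Z.2
    refine ⟨m.1 • y, hH _ m.2 y hy, ?_⟩
    rw [← hZ]
    ext z
    rw [Set.mem_smul_set_iff_inv_smul_mem, mem_Res, mem_Res, ← hiso m.1 y, smul_inv_smul]⟩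
  one_smul Z := Subtype.ext (one_smul G Z.1)
  mul_smul a b Z := Subtype.ext (mul_smul a.1 b.1 Z.1)

/-- the components -/
def E (Δ : Bldg cs C) (J J1 : Set I) (x : C) (i : I) (Z Z' : RX Δ J J1 x) : Prop :=
  ∀ y ∈ Z.1, ∀ z ∈ Z'.1, Δ.δ y z ∈ WJ cs (J \ {i})

omit F in
theorem E_iff {i : I} (hJ1 : J1 ⊆ J \ {i}) {y z : C} (hy : y ∈ Δ.Res J x) (hz : z ∈ Δ.Res J x) :
    E Δ J J1 x i (mk y hy) (mk z hz) ↔ z ∈ Δ.Res (J \ {i}) y := by
  constructor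
  · intro h
    exact h y (Δ.self_mem_Res _ _) z (Δ.self_mem_Res _ _)
  · intro h y' hy' z' hz'
    have h1 : y' ∈ Δ.Res (J \ {i}) y := Δ.Res_mono hJ1 _ hy'
    have h2 : z' ∈ Δ.Res (J \ {i}) z := Δ.Res_mono hJ1 _ hz'
    exact Δ.mem_Res_trans (Δ.mem_Res_symm h1) (Δ.mem_Res_trans h h2)

end RX

section B

variable {G : Type*} [Group G] [MulAction G C] [Finite G] [Finite I] [Finite C] {r : ℕ} [hr : Fact r.Prime]
  {t : Tw Δ G}

open RX

/-- **The minimal invariant residues are chambers.** -/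
theorem gd_empty (S : Sys Δ G r) (hth : Δ.Thick)
    (hD : ∀ x y x' y' : C, Δ.δ x y = Δ.δ x' y' → ∃ g : G, g • x = x' ∧ g • y = y') (hccp : CCP t.τ) {J : Set I} {x : C}
    (h : t.Gd J x) (hsol : Group.IsSolvable (cM t.τ (MulAction.stabilizer G (Δ.Res J x)))) : J = ∅ := by
  classical
  obtain ⟨hJ, hmov⟩ := partA S hth hD h hsol
  by_contra hne
  obtain ⟨i0, hi0⟩ := Set.nonempty_iff_ne_empty.2 hne
  obtain ⟨O, hO⟩ : ∃ O, O = FixOdd.Cox.orb t.σ i0 := ⟨_, rfl⟩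
  have hOσ : ∀ i, t.σ i ∈ O ↔ i ∈ O := fun i => by rw [hO]; exact FixOdd.Cox.map_mem_orb
  have hOJ : O ⊆ J := by rw [hO]; exact FixOdd.Cox.orb_subset h.st hi0
  have hi0O : i0 ∈ O := by rw [hO]; exact FixOdd.Cox.self_mem_orb _
  have hComO : Com cs O := fun i hi j hj => hJ i (hOJ hi) j (hOJ hj)
  obtain ⟨J1, hJ1⟩ : ∃ J1, J1 = J \ O := ⟨_, rfl⟩
  have hJ1J : J1 ⊆ J := by rw [hJ1]; exact Set.sdiff_subset
  have hJ1i : ∀ i ∈ O, J1 ⊆ J \ {i} := by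
    rw [hJ1]
    rintro i hi j ⟨hj, hj'⟩
    exact ⟨hj, fun e => hj' (by
      have : j = i := e
      rw [this]; exact hi)⟩
  have hJ1st : ∀ i ∈ J1, t.σ i ∈ J1 := by
    rw [hJ1]
    rintro i ⟨hi, hi'⟩
    exact ⟨h.st i hi, fun h1 => hi' ((hOσ i).1 h1)⟩
  -- the group
  obtain ⟨H, hH⟩ : ∃ H, H = MulAction.stabilizer G (Δ.Res J x) := ⟨_, rfl⟩
  have hHm : ∀ {y : C}, y ∈ Δ.Res J x → ∀ {m : G}, m ∈ H ↔ m • y ∈ Δ.Res J x := fun {y} hy {m} => by
    rw [hH]; exact mem_stab_of S hy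
  have hHτ : ∀ m ∈ H, t.τ m ∈ H := by rw [hH]; exact stab_τ S h
  rw [← hH] at hsol hmov
  obtain ⟨K, hK⟩ : ∃ K, K = cM t.τ H := ⟨_, rfl⟩
  have hKle : K ≤ H := by rw [hK]; exact cM_le _ hHτ
  have hKn : ∀ m ∈ H, ∀ k ∈ K, m * k * m⁻¹ ∈ K := by rw [hK]; exact cM_conj hHτ
  have hKτ : ∀ k ∈ K, t.τ k ∈ K := by rw [hK]; exact cM_τ hHτ
  rw [← hK] at hsol hmov
  let _ : MulAction H (RX Δ J J1 x) := act S.iso J J1 x H fun m hm y hy => (hHm hy).1 hm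
  have hsm : ∀ (m : H) (y : C) (hy : y ∈ Δ.Res J x), m • (mk y hy : RX Δ J J1 x) = mk (m.1 • y) ((hHm hy).1 m.2) := by
    intro m y hy
    exact Subtype.ext (S.smul_Res _ _ _)
  -- the permutation
  have hθR : ∀ y, t.θ y ∈ Δ.Res J x ↔ y ∈ Δ.Res J x := by
    intro y
    have h1 := t.θ_mem_Res_iff (Δ := Δ) h.st (x := x) (y := y)
    rwa [Δ.Res_eq_of_mem h.θ_mem] at h1
  have hθi : Function.Injective fun Z : RX Δ J J1 x => (⟨t.θ '' Z.1, by
      obtain ⟨y, hy, hZ⟩ := Z.2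
      exact ⟨t.θ y, (hθR y).2 hy, by rw [← hZ, t.image_Res hJ1st]⟩⟩ : RX Δ J J1 x) := by
    intro Z Z' hZ
    exact Subtype.ext (t.θ.injective.image_injective (congrArg Subtype.val hZ))
  have hθs : Function.Surjective fun Z : RX Δ J J1 x => (⟨t.θ '' Z.1, by
      obtain ⟨y, hy, hZ⟩ := Z.2
      exact ⟨t.θ y, (hθR y).2 hy, by rw [← hZ, t.image_Res hJ1st]⟩⟩ : RX Δ J J1 x) := by
    refine rind fun y hy => ?_
    refine ⟨mk (t.θ.symm y) ((hθR _).1 (by rw [Equiv.apply_symm_apply]; exact hy)), Subtype.ext ?_⟩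
    change t.θ '' Δ.Res J1 (t.θ.symm y) = Δ.Res J1 y
    rw [t.image_Res hJ1st, Equiv.apply_symm_apply]
  obtain ⟨θ, hθ⟩ : ∃ θ : Equiv.Perm (RX Δ J J1 x), ∀ Z, (θ Z).1 = t.θ '' Z.1 :=
    ⟨Equiv.ofBijective _ ⟨hθi, hθs⟩, fun Z => rfl⟩
  have hθmk : ∀ y hy, θ (mk y hy) = mk (t.θ y) ((hθR y).2 hy) := fun y hy =>
    Subtype.ext ((hθ _).trans (t.image_Res hJ1st y))
  have hEi : ∀ (i : O) {y z : C} (hy : y ∈ Δ.Res J x) (hz : z ∈ Δ.Res J x),
      E Δ J J1 x i (mk y hy) (mk z hz) ↔ z ∈ Δ.Res (J \ {i.1}) y := fun i y z hy hz => E_iff (hJ1i i.1 i.2) hy hz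
  -- the product structure
  have p1 : ∀ (i : O) (Z : RX Δ J J1 x), E Δ J J1 x i Z Z := by
    intro i
    refine rind fun y hy => ?_
    rw [hEi]
    exact Δ.self_mem_Res _ _
  have p2 : ∀ (i : O) (Z Z' Z'' : RX Δ J J1 x), E Δ J J1 x i Z Z' → E Δ J J1 x i Z' Z'' → E Δ J J1 x i Z Z'' := by
    intro i
    refine rind fun y hy => rind fun y' hy' => rind fun y'' hy'' => ?_
    rw [hEi, hEi, hEi]
    exact Δ.mem_Res_trans
  have p3 : ∀ Z Z' : RX Δ J J1 x, (∀ i : O, E Δ J J1 x i Z Z') → Z = Z' := by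
    refine rind fun y hy => rind fun z hz h1 => mk_eq hy hz ?_
    rw [hJ1]
    exact mem_sdiff (Δ.δ_mem_of_mem_Res hy hz) fun o ho => (hEi ⟨o, ho⟩ hy hz).1 (h1 ⟨o, ho⟩)
  have p4 : ∀ (Z Z' : RX Δ J J1 x) (i : O), ∃ Z'', E Δ J J1 x i Z'' Z' ∧ ∀ j : O, j ≠ i → E Δ J J1 x j Z'' Z := by
    refine rind fun y hy => rind fun z hz i => ?_
    obtain ⟨w, hw1, hw2⟩ : ∃ w, w ∈ Δ.Pan i.1 y ∧ w ∈ Δ.Res (J \ {i.1}) z := by
      rcases mem_or hJ (hOJ i.2) (Δ.δ_mem_of_mem_Res hz hy) with h1 | h1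
      · exact ⟨y, Δ.self_mem_Pan _ _, h1⟩
      · obtain ⟨w, hw1, hw2⟩ := Δ.exists_step z y i.1
        exact ⟨w, Δ.mem_Pan_of_δ hw1, by rw [mem_Res, hw2]; exact h1⟩
    have hwR : w ∈ Δ.Res J x := Δ.mem_Res_trans hy (Δ.Pan_subset_Res (hOJ i.2) _ hw1)
    refine ⟨mk w hwR, ?_, fun j hj => ?_⟩
    · rw [hEi]
      exact Δ.mem_Res_symm hw2
    · rw [hEi]
      exact Δ.mem_Res_symm (Δ.Pan_subset_Res (J := J \ {j.1}) ⟨hOJ i.2, fun e => hj (Subtype.ext (Eq.symm e))⟩ _ hw1)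
  have p5 : ∀ (i : O) (m : H) (Z Z' : RX Δ J J1 x), E Δ J J1 x i Z Z' → E Δ J J1 x i (m • Z) (m • Z') := by
    intro i m
    refine rind fun y hy => rind fun z hz h1 => ?_
    rw [hsm, hsm, hEi, mem_Res, S.iso]
    exact (hEi i hy hz).1 h1
  have p6 : ∀ Z Z' Y Y' : RX Δ J J1 x, (∀ i : O, E Δ J J1 x i Z Z' ↔ E Δ J J1 x i Y Y') →
      ∃ m : H, m • Z = Y ∧ m • Z' = Y' := by
    refine rind fun y hy => rind fun z hz => rind fun y' hy' => rind fun z' hz' h1 => ?_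
    have key : ∀ y ∈ Δ.Res J x, ∀ z ∈ Δ.Res J x, ∃ z1 ∈ Δ.Res J1 z, z1 ∈ Δ.Res J x ∧ Δ.δ y z1 ∈ WJ cs O := by
      intro y hy z hz
      obtain ⟨v, hv, b, hb, hvb⟩ := exists_isMinR cs J1 (Δ.δ y z)
      obtain ⟨z1, e1, e2⟩ := Δ.exists_between hvb (hv b hb)
      have e3 : z1 ∈ Δ.Res J1 z := by
        rw [Δ.mem_Res_comm, mem_Res, e2]
        exact hb
      have e4 : z1 ∈ Δ.Res J x := Δ.mem_Res_trans hz (Δ.Res_mono hJ1J _ e3)
      refine ⟨z1, e3, e4, mem_of_min hJ (Δ.δ_mem_of_mem_Res hy e4) fun j hj hjO h2 => ?_⟩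
      rw [e1] at h2
      have h3 := hv (s j) (simple_mem_WJ cs (by rw [hJ1]; exact ⟨hj, hjO⟩))
      rw [cs.length_simple] at h3
      omega
    obtain ⟨z1, e1, e2, e3⟩ := key y hy z hz
    obtain ⟨z1', e1', e2', e3'⟩ := key y' hy' z' hz'
    have q1 : (mk z hz : RX Δ J J1 x) = mk z1 e2 := mk_eq _ _ e1
    have q1' : (mk z' hz' : RX Δ J J1 x) = mk z1' e2' := mk_eq _ _ e1'
    rw [q1, q1'] at h1 ⊢
    have h2 : Δ.δ y z1 = Δ.δ y' z1' := by
      refine eq_of_desc hComO e3 e3' fun o ho => ?_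
      have h3 := h1 ⟨o, ho⟩
      rw [hEi, hEi] at h3
      rw [desc_iff hJ (hOJ ho) (Δ.δ_mem_of_mem_Res hy e2), desc_iff hJ (hOJ ho) (Δ.δ_mem_of_mem_Res hy' e2')]
      exact not_congr h3
    obtain ⟨g, g1, g2⟩ := hD _ _ _ _ h2
    refine ⟨⟨g, (hHm hy).2 (by rw [g1]; exact hy')⟩, ?_, ?_⟩
    · rw [hsm]
      exact Subtype.ext (by show Δ.Res J1 (g • y) = _; rw [g1]; rfl)
    · rw [hsm]
      exact Subtype.ext (by show Δ.Res J1 (g • z1) = _; rw [g2]; rfl)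
  have p7 : ∀ (Z : RX Δ J J1 x) (i : O), ∃ Y Y', ¬ E Δ J J1 x i Z Y ∧ ¬ E Δ J J1 x i Z Y' ∧ ¬ E Δ J J1 x i Y Y' := by
    refine rind fun y hy i => ?_
    obtain ⟨z, z', hne', hz, hz'⟩ := hth y i.1
    have hzR : z ∈ Δ.Res J x := Δ.mem_Res_trans hy (Δ.Pan_subset_Res (hOJ i.2) _ (Δ.mem_Pan_of_δ hz))
    have hzR' : z' ∈ Δ.Res J x := Δ.mem_Res_trans hy (Δ.Pan_subset_Res (hOJ i.2) _ (Δ.mem_Pan_of_δ hz'))
    have hno : s i.1 ∉ WJ cs (J \ {i.1}) := fun h1 => (mem_of_simple_mem h1).2 rfl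
    refine ⟨mk z hzR, mk z' hzR', ?_, ?_, ?_⟩
    · rw [hEi, mem_Res, hz]; exact hno
    · rw [hEi, mem_Res, hz']; exact hno
    · rw [hEi, mem_Res, Δ.δ_eq_of_mem_Pan (Δ.mem_Pan_of_δ hz) (Δ.mem_Pan_of_δ hz') hne']; exact hno
  have hPS : PS H (RX Δ J J1 x) (fun i : O => E Δ J J1 x i) :=
    ⟨p1, fun hZ y hy z hz => Δ.mem_Res_symm (hZ z hz y hy), fun h1 h2 => p2 _ _ _ _ h1 h2, fun h1 => p3 _ _ h1, p4,
      fun m h1 => p5 _ m _ _ h1, fun h1 => p6 _ _ _ _ h1, p7⟩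
  -- the fixed point
  let σ : O → O := fun i => ⟨t.σ i.1, (hOσ i.1).2 i.2⟩
  have hfin : Finite H := inferInstance
  obtain ⟨Z, hZ⟩ := hPS.exists_fixed (τ := resA t.τ H hHτ) (hccp.res H hHτ) (θ := θ) (σ := σ)
    (fun m Z => Subtype.ext (by
      rw [hθ]
      change t.θ '' (m.1 • Z.1) = t.τ m.1 • (θ Z).1
      rw [hθ, t.image_smul])) (by
      intro i
      refine rind fun y hy => rind fun z hz => ?_
      rw [hθmk, hθmk, hEi, hEi, mem_Res, mem_Res, ← not_iff_not, ← desc_iff hJ (hOJ i.2) (Δ.δ_mem_of_mem_Res hy hz),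
        ← desc_iff hJ (hOJ (σ i).2) (Δ.δ_mem_of_mem_Res ((hθR y).2 hy) ((hθR z).2 hz)), t.δ_θ]
      change _ ↔ ℓ (t.φ (Δ.δ y z) * s (t.σ i.1)) < _
      rw [← t.φ_simple, ← map_mul, t.length_φ, t.length_φ])
    (Finite.injective_iff_bijective.1 fun i j hij => Subtype.ext (t.σ.injective (congrArg Subtype.val hij)))
    (by
      intro T hT hT'
      obtain ⟨i1, hi1⟩ := hT
      have h1 : ∀ i ∈ Subtype.val '' T, t.σ i ∈ Subtype.val '' T := by
        rintro _ ⟨i, hi, rfl⟩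
        exact ⟨σ i, hT' i hi, rfl⟩
      have h2 := FixOdd.Cox.orb_subset h1 (i := i1.1) ⟨i1, hi1, rfl⟩
      have h3 : FixOdd.Cox.orb t.σ i1.1 = O := by
        have h4 : i1.1 ∈ FixOdd.Cox.orb t.σ i0 := hO ▸ i1.2
        exact (FixOdd.Cox.orb_eq h4).trans hO.symm
      rw [h3] at h2
      rw [Set.eq_univ_iff_forall]
      intro i
      obtain ⟨j, hj, hji⟩ := h2 i.2
      rw [← Subtype.ext hji]
      exact hj)
    (K := K.subgroupOf H) (fun m k hk => hKn m.1 m.2 k.1 hk) (fun k hk => hKτ k.1 hk)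
    (Group.isSolvable_of_surjective (f := (Subgroup.subgroupOfEquivOfLe hKle).symm.toMonoidHom)
          (Subgroup.subgroupOfEquivOfLe hKle).symm.surjective)
    (by
      obtain ⟨k, hk, hki⟩ := hmov x (Δ.self_mem_Res _ _) i0 hi0
      refine ⟨⟨k, hKle hk⟩, hk, mk x (Δ.self_mem_Res _ _), fun h1 => ?_⟩
      rw [hsm] at h1
      have h2 : Δ.Res J1 (k • x) = Δ.Res J1 x := congrArg Subtype.val h1
      have h3 : k • x ∈ Δ.Res J1 x := by rw [← h2]; exact Δ.self_mem_Res _ _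
      rw [mem_Res, hki] at h3
      have h4 := mem_of_simple_mem h3
      rw [hJ1] at h4
      exact h4.2 hi0O)
    (mk x (Δ.self_mem_Res _ _))
  obtain ⟨y, hy, rfl⟩ : ∃ y, ∃ hy : y ∈ Δ.Res J x, Z = mk y hy := by
    revert Z
    exact fun Z _ => rind (p := fun Z => ∃ y, ∃ hy : y ∈ Δ.Res J x, Z = mk y hy) (fun y hy => ⟨y, hy, rfl⟩) Z
  rw [hθmk] at hZ
  have h2 : Δ.Res J1 (t.θ y) = Δ.Res J1 y := congrArg Subtype.val hZ
  have h3 : J1 = J := h.min y hy J1 hJ1J hJ1st (by rw [← h2]; exact Δ.self_mem_Res _ _)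
  have h4 : i0 ∈ J1 := by rw [h3]; exact hi0
  rw [hJ1] at h4
  exact h4.2 hi0O

end B

end Cfsg.Agent.H289.Ccp
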